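import Cfsg.Agent.H2.Card

/-!
Stabilisers of totally isotropic subspaces and flags.
-/

set_option autoImplicit false

namespace Cfsg.Agent.H2

open Matrix

variable {m : ℕ} {F : Type*} [Field F]

/-- Linearly independent tuples with pairwise orthogonal entries. -/
abbrev IsotropicTuple (m k : ℕ) (F : Type*) [Field F] :=
  {t : Fin k → Fin m ⊕ Fin m → F //
    LinearIndependent F t ∧ ∀ i j, Cfsg.sympForm m F (t i) (t j) = 0}

/-- Orthogonal of a span of an independent tuple. -/
theorem finrank_orth_span {k : ℕ} (t : Fin k → Fin m ⊕ Fin m → F) (ht : LinearIndependent F t) :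
    Module.finrank F (orth (sympBilin m F) (Submodule.span F (Set.range t))) = 2 * m - k := by
  rw [orth_eq_orthogonal, LinearMap.BilinForm.finrank_orthogonal (sympBilin_nondegenerate m F),
    finrank_span_eq_card ht]
  simp [two_mul]

theorem mem_orth_span_iff {k : ℕ} (t : Fin k → Fin m ⊕ Fin m → F) (v : Fin m ⊕ Fin m → F) :
    v ∈ orth (sympBilin m F) (Submodule.span F (Set.range t)) ↔
      ∀ i, Cfsg.sympForm m F (t i) v = 0 := by
  refine ⟨fun h i => (sympBilin_apply _ _).symm.trans (h _ (Submodule.subset_span ⟨i, rfl⟩)),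
    fun h z hz => ?_⟩
  induction hz using Submodule.span_induction with
  | mem z hz => obtain ⟨i, rfl⟩ := hz; simpa using h i
  | zero => simp
  | add a b _ _ ha hb => simp [ha, hb, ← sympBilin_apply] at *
  | smul c a _ ha => simp [ha, ← sympBilin_apply] at *

/-- Extending an isotropic tuple by one vector. -/
noncomputable def isotropicTupleSucc (m k : ℕ) (F : Type*) [Field F] :
    IsotropicTuple m (k + 1) F ≃ Σ t : IsotropicTuple m k F,
      ↥((orth (sympBilin m F) (Submodule.span F (Set.range t.1)) : Set (Fin m ⊕ Fin m → F)) \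
        (Submodule.span F (Set.range t.1) : Set (Fin m ⊕ Fin m → F))) where
  toFun t := ⟨⟨Fin.init t.1, (linearIndependent_finSucc'.mp t.2.1).1, fun i j => t.2.2 _ _⟩,
    t.1 (Fin.last k), (mem_orth_span_iff _ _).mpr fun i => t.2.2 _ _,
    (linearIndependent_finSucc'.mp t.2.1).2⟩
  invFun s := ⟨Fin.snoc s.1.1 s.2.1, by
    refine ⟨linearIndependent_finSnoc.mpr ⟨s.1.2.1, s.2.2.2⟩, fun i j => ?_⟩
    have ho : ∀ i, Cfsg.sympForm m F (s.1.1 i) s.2.1 = 0 := (mem_orth_span_iff _ _).mp s.2.2.1
    refine Fin.lastCases ?_ (fun i => ?_) i <;> refine Fin.lastCases ?_ (fun j => ?_) j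
    · simp
    · simp [sympForm_swap (s.1.1 j) s.2.1, ho]
    · simp [ho]
    · simp [s.1.2.2]⟩
  left_inv t := Subtype.ext (Fin.snoc_init_self t.1)
  right_inv s := Sigma.subtype_ext (Subtype.ext (Fin.init_snoc (α := fun _ => Fin m ⊕ Fin m → F) _ _))
    (Fin.snoc_last (α := fun _ => Fin m ⊕ Fin m → F) _ _)

/-- The number of independent isotropic tuples. -/
theorem card_isotropicTuple [Finite F] (m k : ℕ) :
    Nat.card (IsotropicTuple m k F) =
      ∏ i ∈ Finset.range k, (Nat.card F ^ (2 * m - i) - Nat.card F ^ i) := by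
  classical
  cases nonempty_fintype F
  induction k with
  | zero =>
    rw [Finset.prod_range_zero, Nat.card_eq_one_iff_unique]
    exact ⟨inferInstance, ⟨⟨Fin.elim0, linearIndependent_empty_type, fun i => i.elim0⟩⟩⟩
  | succ k ih =>
    rw [Nat.card_congr (isotropicTupleSucc m k F), Nat.card_sigma,
      Finset.sum_congr rfl (g := fun _ => Nat.card F ^ (2 * m - k) - Nat.card F ^ k) fun t _ => ?_,
      Finset.sum_const, smul_eq_mul, Finset.card_univ, ← Nat.card_eq_fintype_card, ih,
      Finset.prod_range_succ]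
    have hle : Submodule.span F (Set.range t.1) ≤
        orth (sympBilin m F) (Submodule.span F (Set.range t.1)) :=
      Submodule.span_le.mpr fun v hv => by
        obtain ⟨i, rfl⟩ := hv
        exact (mem_orth_span_iff _ _).mpr fun j => t.2.2 j i
    rw [Nat.card_coe_set_eq, Set.ncard_sdiff (by exact hle), ← Nat.card_coe_set_eq,
      ← Nat.card_coe_set_eq, SetLike.coe_sort_coe, SetLike.coe_sort_coe,
      Module.natCard_eq_pow_finrank (K := F)
        (V := ↥(orth (sympBilin m F) (Submodule.span F (Set.range t.1)))),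
      Module.natCard_eq_pow_finrank (K := F) (V := ↥(Submodule.span F (Set.range t.1))),
      finrank_orth_span _ t.2.1, finrank_span_eq_card t.2.1, Fintype.card_fin]

/-- The product in `card_isotropicTuple`, rewritten. -/
theorem isotropicTuple_prod {q : ℕ} {m k : ℕ} (hk : k ≤ m) :
    q ^ ((m - k) ^ 2) * (∏ i ∈ Finset.range (m - k), (q ^ (2 * (i + 1)) - 1)) *
        q ^ (k * (k + 1) / 2 + 2 * k * (m - k)) *
      (∏ i ∈ Finset.range k, (q ^ (2 * m - i) - q ^ i)) =
    q ^ (m ^ 2) * ∏ i ∈ Finset.range m, (q ^ (2 * (i + 1)) - 1) := by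
  induction k generalizing m with
  | zero => simp
  | succ k ih =>
    rw [← ih (show k ≤ m by omega), Finset.prod_range_succ _ k]
    obtain ⟨d, rfl⟩ : ∃ d, m = k + 1 + d := ⟨m - (k + 1), by omega⟩
    rw [show k + 1 + d - (k + 1) = d by omega, show k + 1 + d - k = d + 1 by omega,
      Finset.prod_range_succ _ d, show 2 * (k + 1 + d) - k = k + 2 * (d + 1) by omega]
    have h1 : (k + 1) * (k + 1 + 1) / 2 = k * (k + 1) / 2 + (k + 1) := by
      rw [← Nat.add_mul_div_left _ _ (show 0 < 2 by omega)]; ring_nf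
    have h2 : q ^ (k + 2 * (d + 1)) - q ^ k = q ^ k * (q ^ (2 * (d + 1)) - 1) := by
      rw [Nat.mul_sub, mul_one, ← pow_add]
    rw [h1, h2, show (d + 1) ^ 2 = d ^ 2 + (2 * d + 1) by ring,
      show 2 * k * (d + 1) = 2 * k * d + 2 * k by ring,
      show 2 * (k + 1) * d = 2 * k * d + 2 * d by ring]
    simp only [pow_add]
    ring

/-- The pointwise stabiliser of an isotropic tuple times the number of such tuples. -/
theorem card_stabilizer_isotropic [Finite F] {k : ℕ} (hk : k ≤ m) (x : IsotropicTuple m k F) :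
    Nat.card (MulAction.stabilizer (Matrix.symplecticGroup (Fin m) F) x.1) =
      Nat.card F ^ ((m - k) ^ 2) *
        (∏ i ∈ Finset.range (m - k), (Nat.card F ^ (2 * (i + 1)) - 1)) *
        Nat.card F ^ (k * (k + 1) / 2 + 2 * k * (m - k)) := by
  have h := card_eq_orbit_mul_stabilizer (G := Matrix.symplecticGroup (Fin m) F) x.1
  have e : Nat.card (MulAction.orbit (Matrix.symplecticGroup (Fin m) F) x.1) =
      Nat.card (IsotropicTuple m k F) := Nat.card_congr (Equiv.subtypeEquivRight fun y => by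
    rw [mem_orbit_tuple_iff _ _ x.2.1]
    simp [x.2.2])
  have hpos : 0 < Nat.card (IsotropicTuple m k F) :=
    @Nat.card_pos _ ⟨x⟩ inferInstance
  rw [e, card_sp, ← isotropicTuple_prod hk, ← card_isotropicTuple] at h
  refine Nat.eq_of_mul_eq_mul_left hpos ?_
  rw [← h]
  ring

/-- Orbit-stabiliser inside a subgroup containing the whole stabiliser. -/
theorem card_eq_orbit_mul_stabilizer_of_le {G α : Type*} [Group G] [MulAction G α] (H : Subgroup G)
    (x : α) (hle : MulAction.stabilizer G x ≤ H) :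
    Nat.card H = Nat.card (MulAction.orbit H x) * Nat.card (MulAction.stabilizer G x) := by
  rw [card_eq_orbit_mul_stabilizer (G := H) x]
  congr 1
  exact Nat.card_congr
    { toFun := fun g => ⟨(g.1 : G), g.2⟩
      invFun := fun g => ⟨⟨g.1, hle g.2⟩, g.2⟩
      left_inv := fun g => rfl
      right_inv := fun g => rfl }

/-- An element mapping a subspace into itself stabilises it. -/
theorem mem_stabilizing_of_map_le (g : Matrix.symplecticGroup (Fin m) F)
    (W : Submodule F (Fin m ⊕ Fin m → F))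
    (h : ∀ w ∈ W, (g : Matrix (Fin m ⊕ Fin m) (Fin m ⊕ Fin m) F) *ᵥ w ∈ W) :
    g ∈ Cfsg.stabilizing (Cfsg.spToMat m F) (W : Set (Fin m ⊕ Fin m → F)) := by
  intro v
  refine ⟨h v, fun hv => ?_⟩
  have hinj : Function.Injective (spToLinearEquiv m F g).toLinearMap :=
    (spToLinearEquiv m F g).injective
  have : W.map (spToLinearEquiv m F g).toLinearMap = W := by
    refine Submodule.eq_of_le_of_finrank_eq ?_ ?_
    · rintro _ ⟨w, hw, rfl⟩
      simpa using h w hw
    · exact ((spToLinearEquiv m F g).finrank_map_eq W)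
  rw [← this] at hv
  obtain ⟨w, hw, e⟩ := hv
  have : w = v := hinj (e.trans (spToLinearEquiv_apply g v).symm)
  exact this ▸ hw

/-- Order of the stabiliser of a totally isotropic subspace. -/
theorem card_stabilizing_isotropic [Finite F] {k : ℕ} (hk : k ≤ m)
    (W : Submodule F (Fin m ⊕ Fin m → F)) (hWk : Module.finrank F W = k)
    (hW : ∀ u ∈ W, ∀ v ∈ W, Cfsg.sympForm m F u v = 0) :
    Nat.card ↥(Cfsg.stabilizing (Cfsg.spToMat m F) (W : Set (Fin m ⊕ Fin m → F))) =
      Nat.card F ^ (k * (k + 1) / 2 + 2 * k * (m - k)) *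
        (Nat.card F ^ ((m - k) ^ 2) *
          ∏ i ∈ Finset.range (m - k), (Nat.card F ^ (2 * (i + 1)) - 1)) *
        ∏ i : Fin k, (Nat.card F ^ k - Nat.card F ^ (i : ℕ)) := by
  classical
  cases nonempty_fintype F
  set H := Cfsg.stabilizing (Cfsg.spToMat m F) (W : Set (Fin m ⊕ Fin m → F)) with hH
  let b := (Module.finBasis F W).reindex (finCongr hWk)
  let x : IsotropicTuple m k F :=
    ⟨fun i => (b i : Fin m ⊕ Fin m → F),
      b.linearIndependent.map' W.subtype W.ker_subtype, fun i j => hW _ (b i).2 _ (b j).2⟩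
  have hgW : ∀ (g : Matrix.symplecticGroup (Fin m) F),
      (∀ i, (g : Matrix (Fin m ⊕ Fin m) (Fin m ⊕ Fin m) F) *ᵥ x.1 i ∈ W) → g ∈ H := by
    intro g hg
    refine mem_stabilizing_of_map_le g W fun w hw => ?_
    obtain ⟨c, hc⟩ : ∃ c : Fin k → F, (∑ i, c i • b i) = ⟨w, hw⟩ :=
      ⟨fun i => b.repr ⟨w, hw⟩ i, b.sum_repr _⟩
    have hw' : w = ∑ i, c i • x.1 i := by
      simpa [x] using (congrArg Subtype.val hc).symm
    rw [hw', Matrix.mulVec_sum]
    exact Submodule.sum_mem _ fun i _ => by rw [Matrix.mulVec_smul]; exact W.smul_mem _ (hg i)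
  have hle : MulAction.stabilizer _ x.1 ≤ H := fun g hg => hgW g fun i => by
    have : g • x.1 i = x.1 i := congrFun hg i
    rw [← smul_eq_mulVec_sp, this]
    exact (b i).2
  rw [card_eq_orbit_mul_stabilizer_of_le H x.1 hle, card_stabilizer_isotropic hk x]
  have e : MulAction.orbit H x.1 ≃ {y : Fin k → W // LinearIndependent F y} :=
    { toFun := fun y => ⟨fun i => ⟨y.1 i, by
          obtain ⟨g, hg⟩ := y.2
          rw [← hg]
          exact (g.2 _).mp (b i).2⟩, by
          obtain ⟨g, hg⟩ := y.2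
          have h1 := ((mem_orbit_tuple_iff x.1 y.1 x.2.1).mp ⟨g.1, hg⟩).1
          exact LinearIndependent.of_comp W.subtype h1⟩
      invFun := fun y => ⟨fun i => (y.1 i : Fin m ⊕ Fin m → F), by
          obtain ⟨g, hg⟩ := (mem_orbit_tuple_iff x.1 (fun i => (y.1 i : Fin m ⊕ Fin m → F)) x.2.1).mpr
            ⟨y.2.map' W.subtype W.ker_subtype, fun i j => by
              rw [x.2.2, hW _ (y.1 i).2 _ (y.1 j).2]⟩
          exact ⟨⟨g, hgW g fun i => by
            have h2 : g • x.1 i = (y.1 i : Fin m ⊕ Fin m → F) := congrFun hg i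
            rw [← smul_eq_mulVec_sp, h2]
            exact (y.1 i).2⟩, hg⟩⟩
      left_inv := fun y => rfl
      right_inv := fun y => rfl }
  rw [Nat.card_congr e, card_linearIndependent (K := F) (le_of_eq hWk.symm), hWk,
    Nat.card_eq_fintype_card]
  ring

end Cfsg.Agent.H2
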