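import Cfsg.Agent.H2.Card

/-!
The symmetric group of degree `2n` inside the symplectic group of degree `2n - 2` in characteristic two.
-/

set_option autoImplicit false

namespace Cfsg.Agent.H2

open LinearMap (BilinForm)

variable {F : Type*} [Field F] {N : ℕ}

/-- Sum-zero vectors vanishing at a chosen point. -/
def evenSpace (F : Type*) [Field F] (N : ℕ) : Submodule F (Fin (N + 1) → F) where
  carrier := {x | ∑ i, x i = 0 ∧ x (Fin.last N) = 0}
  add_mem' hu hv := ⟨by simp [Finset.sum_add_distrib, hu.1, hv.1], by simp [hu.2, hv.2]⟩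
  zero_mem' := ⟨by simp, rfl⟩
  smul_mem' c u hu := ⟨by simp [← Finset.mul_sum, hu.1], by simp [hu.2]⟩

/-- The dot product on `evenSpace`. -/
def evenForm (F : Type*) [Field F] (N : ℕ) : BilinForm F (evenSpace F N) :=
  (Matrix.toBilin' (1 : Matrix (Fin (N + 1)) (Fin (N + 1)) F)).restrict _

theorem evenForm_apply (x y : evenSpace F N) : evenForm F N x y = ∑ i, x.1 i * y.1 i := by
  simp [evenForm, Matrix.toBilin'_apply', Matrix.one_mulVec, dotProduct]

/-- In odd `N`, `N + 1` vanishes in characteristic two. -/
theorem cast_succ_eq_zero [CharP F 2] (hN : Odd N) : ((N + 1 : ℕ) : F) = 0 :=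
  (CharP.cast_eq_zero_iff F 2 _).mpr (hN.add_one).two_dvd

theorem evenForm_isAlt [CharP F 2] : (evenForm F N).IsAlt := fun x => by
  rw [evenForm_apply]
  have h : ∑ i, x.1 i * x.1 i = (∑ i, x.1 i) ^ 2 := by
    rw [CharTwo.sum_sq]
    simp [sq]
  rw [h, x.2.1]
  simp

theorem pairVec_mem [CharP F 2] {a b : Fin (N + 1)} (ha : a ≠ Fin.last N) (hb : b ≠ Fin.last N) :
    (Pi.single a 1 + Pi.single b 1 : Fin (N + 1) → F) ∈ evenSpace F N :=
  ⟨by simp [Finset.sum_add_distrib, CharTwo.add_self_eq_zero],
    by simp [Ne.symm ha, Ne.symm hb]⟩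

theorem evenForm_nondegenerate [CharP F 2] (hN : Odd N) : (evenForm F N).Nondegenerate := by
  have key : ∀ x, (∀ y, evenForm F N x y = 0) → x = 0 := by
    intro x hx
    have heq : ∀ a b, a ≠ Fin.last N → b ≠ Fin.last N → x.1 a = x.1 b := by
      intro a b ha hb
      have h := hx ⟨_, pairVec_mem ha hb⟩
      rw [evenForm_apply] at h
      simp [mul_add, Finset.sum_add_distrib, Pi.single_apply] at h
      exact CharTwo.add_eq_zero.mp h
    refine Subtype.ext (funext fun a => ?_)
    by_cases ha : a = Fin.last N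
    · exact ha ▸ x.2.2
    · have h := x.2.1
      rw [Fin.sum_univ_castSucc, x.2.2, add_zero,
        Finset.sum_congr rfl fun i _ => heq i.castSucc a (Fin.castSucc_lt_last i).ne ha] at h
      simp only [Finset.sum_const, Finset.card_univ, Fintype.card_fin, nsmul_eq_mul] at h
      have h1 : (N : F) = 1 := by
        obtain ⟨k, rfl⟩ := hN
        simp [CharTwo.two_eq_zero]
      rwa [h1, one_mul] at h
  refine ⟨key, fun y hy => key y fun x => ?_⟩
  rw [← evenForm_isAlt.neg_eq, hy x, neg_zero]

theorem finrank_evenSpace [CharP F 2] (hN : 1 ≤ N) :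
    Module.finrank F (evenSpace F N) = N - 1 := by
  obtain ⟨M, rfl⟩ : ∃ M, N = M + 1 := ⟨N - 1, by omega⟩
  let e : evenSpace F (M + 1) ≃ₗ[F] (Fin M → F) :=
    { toFun := fun x i => x.1 i.castSucc.castSucc
      map_add' := fun x y => rfl
      map_smul' := fun c x => rfl
      invFun := fun y => ⟨Fin.snoc (α := fun _ => F) (Fin.snoc (α := fun _ => F) y (∑ i, y i)) 0, by
        refine ⟨?_, by simp⟩
        simp [Fin.sum_univ_castSucc, CharTwo.add_self_eq_zero]⟩
      left_inv := fun x => by
        refine Subtype.ext (funext fun i => ?_)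
        refine Fin.lastCases ?_ (fun i => ?_) i
        · simp [x.2.2]
        · refine Fin.lastCases ?_ (fun i => ?_) i
          · have h := x.2.1
            rw [Fin.sum_univ_castSucc, x.2.2, add_zero, Fin.sum_univ_castSucc,
              CharTwo.add_eq_zero] at h
            simp [h]
          · simp
      right_inv := fun y => by funext i; simp }
  rw [e.finrank_eq, Module.finrank_fin_fun]
  omega

/-- The action of a permutation on `evenSpace`. -/
def evenAct [CharP F 2] (hN : Odd N) (σ : Equiv.Perm (Fin (N + 1))) :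
    evenSpace F N →ₗ[F] evenSpace F N where
  toFun x := ⟨fun i => x.1 (σ⁻¹ i) - x.1 (σ⁻¹ (Fin.last N)), by
    refine ⟨?_, by simp⟩
    rw [Finset.sum_sub_distrib, Equiv.sum_comp σ⁻¹ x.1, x.2.1, Finset.sum_const, Finset.card_univ,
      Fintype.card_fin, nsmul_eq_mul, cast_succ_eq_zero hN, zero_mul, sub_zero]⟩
  map_add' x y := Subtype.ext (funext fun i => by simp; ring)
  map_smul' c x := Subtype.ext (funext fun i => by simp; ring)

theorem evenAct_mul [CharP F 2] (hN : Odd N) (σ τ : Equiv.Perm (Fin (N + 1))) (x : evenSpace F N) :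
    evenAct hN (σ * τ) x = evenAct hN σ (evenAct hN τ x) :=
  Subtype.ext (funext fun i => by simp [evenAct, mul_inv_rev])

theorem evenAct_one [CharP F 2] (hN : Odd N) (x : evenSpace F N) : evenAct hN 1 x = x :=
  Subtype.ext (funext fun i => by simp [evenAct, x.2.2])

/-- The action as a homomorphism into the isometry group. -/
def evenHom [CharP F 2] (hN : Odd N) :
    Equiv.Perm (Fin (N + 1)) →* isometries (evenForm F N) :=
  MonoidHom.mk' (fun σ => ⟨LinearEquiv.ofLinear (evenAct hN σ) (evenAct hN σ⁻¹)
      (LinearMap.ext fun x => by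
        rw [LinearMap.comp_apply, ← evenAct_mul, mul_inv_cancel, evenAct_one, LinearMap.id_apply])
      (LinearMap.ext fun x => by
        rw [LinearMap.comp_apply, ← evenAct_mul, inv_mul_cancel, evenAct_one, LinearMap.id_apply]),
    fun x y => by
      rw [evenForm_apply, evenForm_apply]
      set a := x.1 (σ⁻¹ (Fin.last N))
      set b := y.1 (σ⁻¹ (Fin.last N))
      show ∑ i, (x.1 (σ⁻¹ i) - a) * (y.1 (σ⁻¹ i) - b) = _
      rw [Equiv.sum_comp σ⁻¹ (fun i => (x.1 i - a) * (y.1 i - b))]
      simp only [sub_mul, mul_sub, Finset.sum_sub_distrib, ← Finset.mul_sum, ← Finset.sum_mul, x.2.1,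
        y.2.1, Finset.sum_const, Finset.card_univ, Fintype.card_fin, nsmul_eq_mul,
        cast_succ_eq_zero hN, zero_mul, mul_zero, sub_zero]⟩)
    fun σ τ => Subtype.ext (LinearEquiv.ext fun x => evenAct_mul hN σ τ x)

theorem evenHom_injective [CharP F 2] (hN : Odd N) (hN5 : 5 ≤ N) :
    Function.Injective (evenHom (F := F) hN) := by
  classical
  rw [injective_iff_map_eq_one]
  intro σ hσ
  have hpair : ∀ a b : Fin (N + 1), a ≠ Fin.last N → b ≠ Fin.last N → a ≠ b →
      σ a = a ∨ σ a = b := by
    intro a b ha hb hab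
    have h := congrArg (fun g : isometries (evenForm F N) =>
      ((g : evenSpace F N ≃ₗ[F] evenSpace F N) ⟨_, pairVec_mem (F := F) ha hb⟩).1) hσ
    set x : Fin (N + 1) → F := Pi.single a 1 + Pi.single b 1 with hx
    have h' : ∀ i, x (σ⁻¹ i) - x (σ⁻¹ (Fin.last N)) = x i := fun i => congrFun h i
    have hval : ∀ i, x i = if i = a ∨ i = b then 1 else 0 := by
      intro i
      by_cases h1 : i = a
      · simp [hx, h1, hab]
      · by_cases h2 : i = b <;> simp [hx, h1, h2, Ne.symm hab]
    set k := x (σ⁻¹ (Fin.last N)) with hk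
    have hk0 : k = 0 := by
      by_contra hk0
      have hk1 : k = 1 := by
        have := hval (σ⁻¹ (Fin.last N))
        rw [← hk] at this
        split at this <;> [exact this; exact absurd this hk0]
      -- every point other than `a, b` is carried by `σ⁻¹` into `{a, b}`
      have hc : ((Finset.univ : Finset (Fin (N + 1))) \ {a, b}).card ≤ ({a, b} : Finset _).card := by
        refine Finset.card_le_card_of_injOn (fun i => σ⁻¹ i) (fun i hi => ?_)
          (σ⁻¹.injective.injOn)
        have hi' := (Finset.mem_sdiff.mp hi).2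
        simp only [Finset.mem_insert, Finset.mem_singleton] at hi' ⊢
        have h2 := h' i
        rw [hval i, if_neg hi', hk1, sub_eq_zero, hval] at h2
        by_contra h3
        simp only [Finset.mem_coe, Finset.mem_insert, Finset.mem_singleton] at h3
        rw [if_neg h3] at h2
        exact zero_ne_one h2
      rw [Finset.card_sdiff_of_subset (Finset.subset_univ _), Finset.card_univ, Fintype.card_fin,
        Finset.card_pair hab] at hc
      omega
    have h2 := h' (σ a)
    rw [hk0, sub_zero, Equiv.Perm.coe_inv, Equiv.symm_apply_apply, hval a, if_pos (Or.inl rfl),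
      hval] at h2
    by_contra h3
    rw [if_neg h3] at h2
    exact one_ne_zero h2
  have hfix : ∀ a, a ≠ Fin.last N → σ a = a := by
    intro a ha
    obtain ⟨b, hb⟩ : ∃ b, b ∉ ({a, Fin.last N} : Finset _) :=
      Finset.exists_mem_notMem_of_card_lt_card (t := (Finset.univ : Finset (Fin (N + 1)))) (by
        rw [Finset.card_univ, Fintype.card_fin]
        exact lt_of_le_of_lt Finset.card_le_two (by omega)) |>.imp fun _ h => h.2
    obtain ⟨c, hc⟩ : ∃ c, c ∉ ({a, b, Fin.last N} : Finset _) :=
      Finset.exists_mem_notMem_of_card_lt_card (t := (Finset.univ : Finset (Fin (N + 1)))) (by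
        rw [Finset.card_univ, Fintype.card_fin]
        exact lt_of_le_of_lt Finset.card_le_three (by omega)) |>.imp fun _ h => h.2
    simp only [Finset.mem_insert, Finset.mem_singleton, not_or] at hb hc
    rcases hpair a b ha hb.2 (Ne.symm hb.1) with h1 | h1
    · exact h1
    · rcases hpair a c ha hc.2.2 (Ne.symm hc.1) with h2 | h2
      · exact h2
      · exact absurd (h2.symm.trans h1) hc.2.1
  refine Equiv.ext fun a => ?_
  by_cases ha : a = Fin.last N
  · by_contra h
    have := hfix (σ a) (by rw [ha] at h ⊢; exact h)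
    exact h (σ.injective this)
  · exact hfix a ha

/-- The symmetric group of degree `N + 1` embeds in `Sp` of degree `N - 1` in characteristic two. -/
theorem exists_perm_embedding [CharP F 2] {m : ℕ} (hN : N = 2 * m + 1) (hm : 2 ≤ m) :
    ∃ f : Equiv.Perm (Fin (N + 1)) →* Matrix.symplecticGroup (Fin m) F, Function.Injective f := by
  have hodd : Odd N := ⟨m, hN⟩
  obtain ⟨e⟩ := isometries_equiv_sp (evenForm F N) (evenForm_nondegenerate hodd) evenForm_isAlt
    (m := m) (by rw [finrank_evenSpace (by omega)]; omega)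
  exact ⟨e.toMonoidHom.comp (evenHom hodd), e.injective.comp (evenHom_injective hodd (by omega))⟩

end Cfsg.Agent.H2
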